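import Cfsg.Agent.H608.Lb.More
import Cfsg.Agent.H634.OneP.Main
import Cfsg.Agent.H426.OneP.Triv
import Cfsg.Agent.H963.OneP.RankEq
import Cfsg.Agent.H17.LB.Cover
import Cfsg.Agent.H23.LB.Defs

/-!
# S4879, the row `F₄(q)`, `p = 7`, piece F2a (helper283)

The integral columns of a normal subgroup `N` of index 2 at an element `x` of order 7, rational in `N` and not
`N`-conjugate to its images under the elements outside `N`.

* `orth_of` : orthogonality of the columns at `x` and at `σ x`;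
* `f2a` : the piece.
-/

set_option autoImplicit false

namespace Cfsg.Agent.H283.LB

open Cfsg Subgroup Cfsg.Agent.Characters.Core Cfsg.Agent.H608.Lb Cfsg.Agent.H666.Clif
open scoped ComplexConjugate

universe u

theorem inner_mul_conj_inner {K : Type u} [Group K] [Fintype K] (a b Φ Ψ : K → ℂ) :
    classInner a Φ * conj (classInner b Ψ) = ((Nat.card K : ℂ)⁻¹ * (Nat.card K : ℂ)⁻¹) *
      ∑ y : K, ∑ y' : K, (conj (Φ y) * Ψ y') * (a y * conj (b y')) := by
  rw [classInner_def, classInner_def]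
  simp only [map_mul, map_sum, map_inv₀, Complex.conj_natCast, Complex.conj_conj]
  rw [mul_mul_mul_comm]
  congr 1
  rw [Finset.sum_mul_sum]
  refine Finset.sum_congr rfl fun y _ => Finset.sum_congr rfl fun y' _ => ?_
  ring

/-- orthogonality of the columns at `x` and at `σ x` -/
theorem orth_of {X : Type u} [Group X] [Fintype X] [Fintype (IrrCharacter X)] {p : ℕ} [Fact p.Prime] {x : X}
    (hx : ∃ k : ℕ, orderOf x = p ^ k) (K : Subgroup X) [Fintype K] (hK : K ≤ centralizer ({x} : Set X))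
    (σ : MulAut X) (hσ : ∀ n : X, n * x * n⁻¹ ≠ σ x) (Φ Ψ : K → ℂ) (hΦ : ∀ k : K, p ∣ orderOf k → Φ k = 0)
    (hΨ : ∀ k : K, p ∣ orderOf k → Ψ k = 0) :
    ∑ χ : IrrCharacter X, classInner (fun k : K => (χ : X → ℂ) (x * k)) Φ *
      conj (classInner (fun k : K => (χ : X → ℂ) (σ (x * k))) Ψ) = 0 := by
  classical
  have hKc : ∀ k : K, Commute x (k : X) := fun k =>
    (Subgroup.mem_centralizer_singleton_iff.1 (hK k.2)).symm
  rw [Finset.sum_congr rfl fun (χ : IrrCharacter X) _ => inner_mul_conj_inner _ _ _ _, ← Finset.mul_sum, Finset.sum_comm,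
    Finset.sum_eq_zero, mul_zero]
  intro y _
  rw [Finset.sum_comm]
  refine Finset.sum_eq_zero fun y' _ => ?_
  rw [← Finset.mul_sum, S0876.sum_irr_mul_conj]
  by_cases hy : p ∣ orderOf y
  · rw [hΦ y hy, map_zero, zero_mul, zero_mul]
  by_cases hy' : p ∣ orderOf y'
  · rw [hΨ y' hy', mul_zero, zero_mul]
  have h1 : IsEmpty {u : X // u * (x * (y : X)) * u⁻¹ = σ (x * (y' : X))} := by
    refine ⟨fun ⟨u, hu⟩ => hσ u ?_⟩
    have h2 := Blocks.PPart.isPPart_mul (p := p) (hKc y) hx (by rwa [Subgroup.orderOf_coe])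
    have h3 := Blocks.PPart.isPPart_mul (p := p) (hKc y') hx (by rwa [Subgroup.orderOf_coe])
    have h4 := Blocks.PPart.isPPart_conj h2 u
    have h5 := Blocks.PPart.isPPart_map σ.toMonoidHom σ.injective h3
    rw [hu] at h4
    exact Blocks.PPart.isPPart_unique h4 h5
  rw [Nat.card_of_isEmpty, Nat.cast_zero, mul_zero]

/-- the relative index inside `N` -/
theorem relIndex_sub {G : Type u} [Group G] (P N : Subgroup G) (hPN : P ≤ N) (x : G) (hxN : x ∈ N)
    (hC : centralizer ({x} : Set G) ≤ N) :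
    (centralizer ((P.subgroupOf N : Subgroup N) : Set N)).relIndex
        (normalizer ((P.subgroupOf N : Subgroup N) : Set N) ⊓ centralizer ({(⟨x, hxN⟩ : N)} : Set N)) =
      (centralizer (P : Set G)).relIndex (normalizer (P : Set G) ⊓ centralizer ({x} : Set G)) := by
  have h1 : centralizer ((P.subgroupOf N : Subgroup N) : Set N) = (centralizer (P : Set G)).subgroupOf N := by
    ext g
    rw [Subgroup.mem_subgroupOf, Subgroup.mem_centralizer_iff, Subgroup.mem_centralizer_iff]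
    constructor
    · intro h a ha
      exact congrArg Subtype.val (h ⟨a, hPN ha⟩ ha)
    · intro h a ha
      exact Subtype.ext (h a ha)
  have h2 : normalizer ((P.subgroupOf N : Subgroup N) : Set N) ⊓ centralizer ({(⟨x, hxN⟩ : N)} : Set N) =
      (normalizer (P : Set G) ⊓ centralizer ({x} : Set G)).subgroupOf N := by
    ext g
    rw [Subgroup.mem_subgroupOf, Subgroup.mem_inf, Subgroup.mem_inf, Subgroup.mem_centralizer_singleton_iff,
      Subgroup.mem_centralizer_singleton_iff, Subgroup.mem_normalizer_iff, Subgroup.mem_normalizer_iff]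
    refine and_congr ⟨fun h a => ?_, fun h a => ?_⟩ ⟨fun h => congrArg Subtype.val h, fun h => Subtype.ext h⟩
    · constructor
      · intro ha
        exact (h ⟨a, hPN ha⟩).1 ha
      · intro ha
        have h3 : a ∈ N := by
          have h4 := N.mul_mem (N.mul_mem (N.inv_mem g.2) (hPN ha)) g.2
          have h5 : (g : G)⁻¹ * (g * a * (g : G)⁻¹) * g = a := by group
          rwa [h5] at h4
        exact (h ⟨a, h3⟩).2 ha
    · exact h a
  rw [h1, h2, Subgroup.relIndex_subgroupOf (inf_le_right.trans hC)]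

theorem mem_normalizer_zpowers {G : Type u} [Group G] [Finite G] {p : ℕ} (hp : p.Prime) {x g : G} (hx : orderOf x = p)
    {k : ℕ} (hk : ¬ p ∣ k) (hg : g * x * g⁻¹ = x ^ k) : g ∈ normalizer ((zpowers x : Subgroup G) : Set G) := by
  rw [Subgroup.mem_normalizer_iff]
  have h1 : ∀ j : ℤ, g * x ^ j * g⁻¹ = (x ^ k) ^ j := by
    intro j
    rw [← hg, conj_zpow]
  have h2 : (orderOf x).Coprime k := by
    rw [hx]
    exact (hp.coprime_iff_not_dvd).2 hk
  intro a
  constructor
  · rintro ⟨j, rfl⟩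
    show g * x ^ j * g⁻¹ ∈ _
    rw [h1]
    exact (zpowers x).zpow_mem ((zpowers x).pow_mem (Subgroup.mem_zpowers x) k) j
  · rintro ⟨j, hj⟩
    obtain ⟨b, hb⟩ := exists_pow_eq_self_of_coprime (x := x) (n := k) h2.symm
    have hj' : x ^ j = g * a * g⁻¹ := hj
    have h3 : g * x ^ ((b : ℤ) * j) * g⁻¹ = g * a * g⁻¹ := by
      rw [h1, ← hj', zpow_mul, zpow_natCast, hb]
    have h4 : x ^ ((b : ℤ) * j) = a := mul_left_cancel (mul_right_cancel h3)
    exact ⟨(b : ℤ) * j, h4⟩

/-- **Piece F2a**, `x` rational in `N`. -/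
theorem f2a_aux {M : Ideal AlgInt} (hM : IsPModular 7 M) (G : Type u) [Group G] [Finite G] (P : Sylow 7 G)
    (hP : Nat.card P = 7 ^ 2) (hel : ∀ x ∈ (P : Subgroup G), x ^ 7 = 1) (x : G) (hx : x ∈ (P : Subgroup G)) (hx1 : x ≠ 1)
    (h3 : (centralizer ((P : Subgroup G) : Set G)).relIndex
      (normalizer ((P : Subgroup G) : Set G) ⊓ centralizer ({x} : Set G)) = 3)
    (N : Subgroup G) [N.Normal] (hN : N.index = 2)
    (hrat : ∀ k : ℕ, ¬ 7 ∣ k → ∃ n ∈ N, n * x * n⁻¹ = x ^ k)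
    (hcl : ∀ g ∉ N, ∀ n ∈ N, g * x * g⁻¹ ≠ n * x * n⁻¹) (s₀ : G) (hs₀ : s₀ ∉ N) :
    ∃ qN : IrrCharacter N → Fin 3 → ℤ, H23.LB.NData N s₀ (principalBlock M G) (principalBlock M N) qN ∧
      (∀ θ : IrrCharacter N, (θ : N → ℂ) = 1 → qN θ = ![1, 0, 0]) ∧
      ∀ θ ∈ principalBlock M N, qN θ = ![1, 0, 0] → ∀ n : N, (n : G) = x → (θ : N → ℂ) n = 1 := by
  classical
  have hp7 : Fact (Nat.Prime 7) := ⟨by norm_num⟩
  have hMp := Blocks.Local.isPrime_of_isPModular hM
  have habel : ∀ a ∈ (P : Subgroup G), ∀ b ∈ (P : Subgroup G), a * b = b * a := by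
    intro a ha b hb
    have hcomm := IsPGroup.isMulCommutative_of_card_eq_prime_sq hP
    exact congrArg Subtype.val (hcomm.is_comm.comm (⟨a, ha⟩ : P) ⟨b, hb⟩)
  have hCx : centralizer ({x} : Set G) ≤ N := by
    intro c hc
    by_contra hcN
    apply hcl c hcN 1 N.one_mem
    rw [Subgroup.mem_centralizer_singleton_iff] at hc
    rw [hc]
    group
  have hCP : centralizer ((P : Subgroup G) : Set G) ≤ N :=
    (Subgroup.centralizer_le (Set.singleton_subset_iff.2 hx)).trans hCx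
  have hPC : (P : Subgroup G) ≤ centralizer ({x} : Set G) := fun a ha =>
    Subgroup.mem_centralizer_singleton_iff.2 (habel a ha x hx)
  have hPN : (P : Subgroup G) ≤ N := hPC.trans hCx
  have hxo : orderOf x = 7 := orderOf_eq_prime (hel x hx) hx1
  let PN : Sylow 7 N := P.subtype hPN
  have hPNc : Nat.card PN = 7 ^ 2 := by
    rw [← hP]
    exact Nat.card_congr (Subgroup.subgroupOfEquivOfLe hPN).toEquiv
  let xN : N := ⟨x, hPN hx⟩
  have hxN : xN ∈ (PN : Subgroup N) := hx
  have hxN1 : xN ≠ 1 := fun h => hx1 (congrArg Subtype.val h)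
  have helN : ∀ a ∈ (PN : Subgroup N), a ^ 7 = 1 := by
    intro a ha
    exact Subtype.ext (hel a ha)
  have hxNo : orderOf xN = 7 := orderOf_eq_prime (helN xN hxN) hxN1
  have h3N : (centralizer ((PN : Subgroup N) : Set N)).relIndex
      (normalizer ((PN : Subgroup N) : Set N) ⊓ centralizer ({xN} : Set N)) = 3 := by
    rw [← h3]
    exact relIndex_sub (P : Subgroup G) N hPN x (hPN hx) hCx
  obtain ⟨K, S, hK⟩ := exists_sit PN hPNc helN hxN hxN1
  have := Fintype.ofFinite K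
  obtain ⟨e, m, u, s, Φ, L⟩ := exists_loc' hM (by norm_num) K hK
  have he : e = 3 := by
    rw [← rank_cent hM S L, H963.OneP.RankEq.rank_eq hM (by norm_num) PN hPNc helN hxN hxN1, h3N]
  subst he
  have hm : m = 2 := by
    have := L.em
    omega
  subst hm
  obtain ⟨i0, hi0, hs0⟩ := L.one
  obtain ⟨u, s, Φ, L, hu0, hs0⟩ : ∃ (u : Fin 3 → IrrCharacter K) (s : Fin 3 → ℤ) (Φ : Fin 3 → K → ℂ),
      ∃ _ : Loc 7 M K 3 2 u s Φ, (u 0 : K → ℂ) = 1 ∧ s 0 = 1 := by
    refine ⟨_, _, _, L.reindex (Equiv.swap 0 i0), ?_, ?_⟩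
    · show (u (Equiv.swap 0 i0 0) : K → ℂ) = 1
      rw [Equiv.swap_apply_left]
      exact hi0
    · show s (Equiv.swap 0 i0 0) = 1
      rw [Equiv.swap_apply_left]
      exact hs0
  obtain ⟨π, hπι, hπ, hker⟩ := S.proj
  have hπs : Function.Surjective π := fun k => ⟨Subgroup.inclusion S.le k, hπι k⟩
  have hinv : ∀ k : ℕ, ¬ 7 ∣ k → ∃ g : N, g * xN * g⁻¹ = xN ^ k ∧
      ∀ i (y y' : K), ¬ 7 ∣ orderOf y → g * y * g⁻¹ = (y' : N) → (u i : K → ℂ) y' = (u i : K → ℂ) y := by
    intro k hk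
    obtain ⟨n, hn, hnx⟩ := hrat k hk
    refine ⟨⟨n, hn⟩, Subtype.ext hnx, fun i y y' hy hyy' => ?_⟩
    have h1 := H426.OneP.triv_of H634.OneP.normalTriv hM (by norm_num) PN hPNc helN hxN hxN1 (by rw [h3N])
      (H133.PB.mem_principalBlock_comp π hπs (L.mem i))
      (mem_normalizer_zpowers (by norm_num) hxNo hk (show (⟨n, hn⟩ : N) * xN * (⟨n, hn⟩ : N)⁻¹ = xN ^ k from Subtype.ext hnx))
      (Subgroup.inclusion S.le y) (Subgroup.inclusion S.le y')
      (by rwa [orderOf_injective (Subgroup.inclusion S.le) (Subgroup.inclusion_injective S.le)]) hyy'.symm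
    have h2 : (u i : K → ℂ) (π (Subgroup.inclusion S.le y')) = (u i : K → ℂ) (π (Subgroup.inclusion S.le y)) := h1
    rwa [hπι, hπι] at h2
  obtain ⟨q, C⟩ := exists_cols hM S L hinv
  have hone : ¬ 7 ∣ orderOf (1 : K) := by
    rw [orderOf_one]; norm_num
  refine ⟨q, ⟨C.zero, ?_, ?_, ?_, ?_⟩, ?_, ?_⟩
  · intro _ i j
    have h1 := C.gram i j
    rw [h1]
    norm_num
  · intro _ sg hsg i j
    have := Fintype.ofFinite N
    have h1 := orth_of (p := 7) (x := xN) ⟨1, by rw [hxNo, pow_one]⟩ K S.le (MulAut.conjNormal s₀ : MulAut N)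
      (fun n h => hcl s₀ hs₀ n n.2 (by
        have h2 := congrArg Subtype.val h
        rw [MulAut.conjNormal_apply] at h2
        exact h2.symm)) (Φ i) (Φ j) (L.van i) (L.van j)
    have h2 : ∀ θ : IrrCharacter N, classInner (fun k : K => (θ : N → ℂ) (xN * k)) (Φ i) *
        conj (classInner (fun k : K => (θ : N → ℂ) (MulAut.conjNormal s₀ (xN * k))) (Φ j)) =
          ((q θ i * q (sg θ) j : ℤ) : ℂ) := by
      intro θ
      have h3 : (fun k : K => (θ : N → ℂ) (MulAut.conjNormal s₀ (xN * k))) = fun k : K => (sg θ : N → ℂ) (xN * k) := by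
        funext k
        exact (hsg θ (xN * k) _ (MulAut.conjNormal_apply _ _)).symm
      rw [h3, C.def_, C.def_, map_intCast]
      push_cast
      rfl
    rw [Finset.sum_congr rfl fun θ _ => h2 θ] at h1
    exact_mod_cast h1
  · intro θ hθ
    have h1 := C.sum θ hθ
    rw [Fin.sum_univ_three] at h1
    have h2 := h1.symm.dvd
    exact_mod_cast h2
  · intro χ θ h
    exact H17.LB.cover_iff hM P N hN hCP χ θ h
  · intro θ hθ
    funext i
    rw [C.one 0 hu0 θ hθ i]
    fin_cases i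
    · simp [hs0]
    · simp
    · simp
  · intro θ hθ hq n hn
    have hnx : n = xN := Subtype.ext hn
    have h1 := C.val θ hθ 1 hone
    rw [Subgroup.coe_one, mul_one, hq, Fin.sum_univ_three] at h1
    rw [hnx, h1, hu0, hs0]
    simp

/-- **Piece F2a.** -/
theorem f2a {M : Ideal AlgInt} (hM : IsPModular 7 M) : H23.LB.F2a.{u} M :=
  fun G _ _ P hP hel x hx hx1 h3 N _ hN hrat hcl s₀ hs₀ => f2a_aux hM G P hP hel x hx hx1 h3 N hN hrat hcl s₀ hs₀

end Cfsg.Agent.H283.LB
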