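import Cfsg.Agent.H283.LB.Proj
import Cfsg.Agent.H684.CoverCount
import Cfsg.Agent.Blocks.Over
import Cfsg.Agent.Blocks.Covering

/-!
# S4879, tool (T5) for a normal subgroup (helper283)

`T` normal in `G`, `Ψ i : T → ℂ` vanishing on the `p`-singular elements of `T`, `θ j ∈ B₀(T)`, the `θ j` (or the `Ψ i`)
`G`-invariant, `[θ j, Ψ i]` nonsingular of size `n`: then `n ≤ l(B₀(G))`. No condition on `G / T`.

* `le_of_inv`: invariant `Ψ i`; `le_of_inv_char`: invariant `θ j`;
* `Cert p n M X`: the data for a group `X` (invariance under `Aut X`), `Cert.le`: `X ≃* T`, `T` normal in `G`.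
-/

set_option autoImplicit false

namespace Cfsg.Agent.H283.LB

open Cfsg Cfsg.Agent.Characters.Core
open scoped ComplexConjugate

universe u v

section Normal

variable {G : Type u} [Group G] [Fintype G] {p : ℕ} (T : Subgroup G) [T.Normal] [Fintype T]

open Classical in
/-- extension by zero -/
noncomputable def ext0 (Φ : T → ℂ) (g : G) : ℂ := if h : g ∈ T then Φ ⟨g, h⟩ else 0

theorem ext0_coe (Φ : T → ℂ) (t : T) : ext0 T Φ (t : G) = Φ t := by
  unfold ext0
  rw [dif_pos t.2]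

theorem ext0_notMem (Φ : T → ℂ) {g : G} (hg : g ∉ T) : ext0 T Φ g = 0 := by
  unfold ext0
  rw [dif_neg hg]

theorem classInner_ext0 (Φ : T → ℂ) (χ : G → ℂ) :
    classInner χ (ext0 T Φ) = (Nat.card G : ℂ)⁻¹ * ∑ t : T, conj (Φ t) * χ t := by
  classical
  unfold classInner
  congr 1
  have h1 : ∑ g : G, χ g * conj (ext0 T Φ g) =
      ∑ g ∈ Finset.univ.filter (fun g => g ∈ T), χ g * conj (ext0 T Φ g) := by
    rw [Finset.sum_filter]
    refine Finset.sum_congr rfl fun g _ => ?_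
    by_cases hg : g ∈ T
    · rw [if_pos hg]
    · rw [if_neg hg, ext0_notMem T Φ hg, map_zero, mul_zero]
  rw [h1, Finset.sum_subtype (p := fun g => g ∈ T) _ (by simp)]
  refine Finset.sum_congr rfl fun t _ => ?_
  rw [ext0_coe, mul_comm]

theorem card_mul_classInner (Φ : T → ℂ) (θ : T → ℂ) :
    ∑ t : T, conj (Φ t) * θ t = (Nat.card T : ℂ) * classInner θ Φ := by
  unfold classInner
  rw [← mul_assoc, mul_inv_cancel₀ (by exact_mod_cast Nat.card_pos.ne'), one_mul]
  exact Finset.sum_congr rfl fun t _ => mul_comm _ _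

/-- **T5 for a normal subgroup, invariant functions.** -/
theorem le_of_inv [Fact p.Prime] {M : Ideal AlgInt} (hM : IsPModular p M) {n : ℕ} (Φ : Fin n → T → ℂ)
    (hΦ : ∀ i t, p ∣ orderOf t → Φ i t = 0) (hinv : ∀ i (g : G) t, Φ i (MulAut.conjNormal g t) = Φ i t)
    (θ : Fin n → IrrCharacter T) (hθ : ∀ j, θ j ∈ principalBlock M T)
    (hdet : (Matrix.of fun i j => classInner (θ j : T → ℂ) (Φ i)).det ≠ 0) :
    n ≤ blockRank p (principalBlock M G) := by
  classical
  choose χ hχ hover using fun j => H684.CoverCount.exists_over hM T (θ j) (hθ j)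
  have h1 : ∀ i j, classInner (χ j : G → ℂ) (ext0 T (Φ i)) =
      classInner (θ j : T → ℂ) (Φ i) * ((Nat.card G : ℂ)⁻¹ * (Nat.card T : ℂ) * ((χ j : G → ℂ) 1 / (θ j : T → ℂ) 1)) := by
    intro i j
    have h2 := Blocks.Over.sum_mul_eq_of_over T (χ j).2 (θ j).2 (hover j) (fun t => conj (Φ i t))
      (fun g t => by rw [hinv])
    have h3 : (χ j : G → ℂ) 1 ≠ 0 := isIrr_apply_one_ne_zero (χ j).2
    have h4 : (θ j : T → ℂ) 1 ≠ 0 := isIrr_apply_one_ne_zero (θ j).2
    rw [div_eq_div_iff h3 h4, card_mul_classInner T (Φ i) (θ j : T → ℂ)] at h2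
    rw [classInner_ext0]
    field_simp
    rw [h2]
    ring
  have h5 := le_blockRank_of_det (p := p) (B := principalBlock M G) (fun i => ext0 T (Φ i)) (by
    intro i g hg
    by_cases hgT : g ∈ T
    · rw [show g = ((⟨g, hgT⟩ : T) : G) from rfl, ext0_coe]
      apply hΦ
      rw [Subgroup.orderOf_mk]
      exact not_not.1 hg
    · exact ext0_notMem T _ hgT) χ hχ (by
    have h6 : (Matrix.of fun i j => classInner (χ j : G → ℂ) (ext0 T (Φ i))) =
        (Matrix.of fun i j => classInner (θ j : T → ℂ) (Φ i)) * Matrix.diagonal (fun j =>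
          (Nat.card G : ℂ)⁻¹ * (Nat.card T : ℂ) * ((χ j : G → ℂ) 1 / (θ j : T → ℂ) 1)) := by
      ext i j
      rw [Matrix.mul_diagonal]
      exact h1 i j
    rw [h6, Matrix.det_mul, Matrix.det_diagonal]
    refine mul_ne_zero hdet (Finset.prod_ne_zero_iff.2 fun j _ => ?_)
    refine mul_ne_zero (mul_ne_zero (inv_ne_zero (by exact_mod_cast Nat.card_pos.ne'))
      (by exact_mod_cast Nat.card_pos.ne')) (div_ne_zero (isIrr_apply_one_ne_zero (χ j).2)
        (isIrr_apply_one_ne_zero (θ j).2)))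
  rwa [Fintype.card_fin] at h5

/-- the average over `G` -/
noncomputable def avg (Ψ : T → ℂ) (t : T) : ℂ := (Nat.card G : ℂ)⁻¹ * ∑ g : G, Ψ (MulAut.conjNormal g t)

theorem avg_inv (Ψ : T → ℂ) (g : G) (t : T) : avg T Ψ (MulAut.conjNormal g t) = avg T Ψ t := by
  unfold avg
  congr 1
  refine Fintype.sum_equiv (Equiv.mulRight g) _ _ fun x => ?_
  rw [Equiv.coe_mulRight, map_mul]
  rfl

theorem classInner_avg (Ψ θ : T → ℂ) (hθ : ∀ (g : G) t, θ (MulAut.conjNormal g t) = θ t) :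
    classInner θ (avg T Ψ) = classInner θ Ψ := by
  have h1 : ∀ g : G, ∑ t : T, θ t * conj (Ψ (MulAut.conjNormal g t)) = ∑ t : T, θ t * conj (Ψ t) := by
    intro g
    refine Fintype.sum_equiv (MulAut.conjNormal g : MulAut T).toEquiv _ _ fun t => ?_
    change _ = θ (MulAut.conjNormal g t) * conj (Ψ (MulAut.conjNormal g t))
    rw [hθ]
  unfold classInner
  congr 1
  have h2 : ∀ t : T, θ t * conj (avg T Ψ t) = (Nat.card G : ℂ)⁻¹ * ∑ g : G, θ t * conj (Ψ (MulAut.conjNormal g t)) := by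
    intro t
    unfold avg
    rw [map_mul, map_inv₀, Complex.conj_natCast, map_sum, mul_left_comm, Finset.mul_sum (s := Finset.univ)]
  rw [Finset.sum_congr rfl fun t _ => h2 t, ← Finset.mul_sum, Finset.sum_comm,
    Finset.sum_congr rfl fun g _ => h1 g, Finset.sum_const, Finset.card_univ, nsmul_eq_mul,
    Nat.card_eq_fintype_card, ← mul_assoc, inv_mul_cancel₀ (by exact_mod_cast Fintype.card_ne_zero), one_mul]

/-- **T5 for a normal subgroup, invariant characters.** -/
theorem le_of_inv_char [Fact p.Prime] {M : Ideal AlgInt} (hM : IsPModular p M) {n : ℕ} (Ψ : Fin n → T → ℂ)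
    (hΨ : ∀ i t, p ∣ orderOf t → Ψ i t = 0)
    (θ : Fin n → IrrCharacter T) (hθ : ∀ j, θ j ∈ principalBlock M T)
    (hinv : ∀ j (g : G) t, (θ j : T → ℂ) (MulAut.conjNormal g t) = (θ j : T → ℂ) t)
    (hdet : (Matrix.of fun i j => classInner (θ j : T → ℂ) (Ψ i)).det ≠ 0) :
    n ≤ blockRank p (principalBlock M G) := by
  refine le_of_inv T hM (fun i => avg T (Ψ i)) ?_ (fun i g t => avg_inv T (Ψ i) g t) θ hθ ?_
  · intro i t ht
    unfold avg
    rw [Finset.sum_eq_zero, mul_zero]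
    intro g _
    apply hΨ
    rwa [MulEquiv.orderOf_eq]
  · have h1 : (Matrix.of fun i j => classInner (θ j : T → ℂ) (avg T (Ψ i))) =
        Matrix.of fun i j => classInner (θ j : T → ℂ) (Ψ i) := by
      ext i j
      exact classInner_avg T (Ψ i) (θ j : T → ℂ) (fun g t => hinv j g t)
    rwa [h1]

end Normal

/-- a T5 certificate of size `n` for `X` -/
def Cert (p n : ℕ) (M : Ideal AlgInt) (X : Type v) [Group X] [Fintype X] : Prop :=
  ∃ (Ψ : Fin n → X → ℂ) (χ : Fin n → IrrCharacter X), (∀ i x, p ∣ orderOf x → Ψ i x = 0) ∧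
    (∀ j, χ j ∈ principalBlock M X) ∧ (Matrix.of fun i j => classInner (χ j : X → ℂ) (Ψ i)).det ≠ 0 ∧
    ((∀ (φ : MulAut X) j x, (χ j : X → ℂ) (φ x) = (χ j : X → ℂ) x) ∨ ∀ (φ : MulAut X) i x, Ψ i (φ x) = Ψ i x)

theorem Cert.of_int {p n : ℕ} {M : Ideal AlgInt} {X : Type v} [Group X] [Fintype X] (Ψ : Fin n → X → ℂ)
    (χ : Fin n → IrrCharacter X) (h1 : ∀ i x, p ∣ orderOf x → Ψ i x = 0) (h2 : ∀ j, χ j ∈ principalBlock M X)
    (A : Matrix (Fin n) (Fin n) ℤ) (hA : ∀ i j, classInner (χ j : X → ℂ) (Ψ i) = A i j) (hdet : A.det ≠ 0)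
    (h3 : (∀ (φ : MulAut X) j x, (χ j : X → ℂ) (φ x) = (χ j : X → ℂ) x) ∨
      ∀ (φ : MulAut X) i x, Ψ i (φ x) = Ψ i x) : Cert p n M X := by
  refine ⟨Ψ, χ, h1, h2, ?_, h3⟩
  have h4 : (Matrix.of fun i j => classInner (χ j : X → ℂ) (Ψ i)) = A.map (Int.castRingHom ℂ) := by
    ext i j
    exact hA i j
  rw [h4, ← RingHom.mapMatrix_apply, ← RingHom.map_det]
  change ((A.det : ℤ) : ℂ) ≠ 0
  exact_mod_cast hdet

/-- **T5 for almost simple groups.** -/
theorem Cert.le {p n : ℕ} [Fact p.Prime] {M : Ideal AlgInt} (hM : IsPModular p M) {X : Type v} [Group X] [Fintype X]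
    (h : Cert p n M X) {G : Type u} [Group G] [Finite G] (T : Subgroup G) [T.Normal] (e : T ≃* X) :
    n ≤ blockRank p (principalBlock M G) := by
  classical
  cases nonempty_fintype G
  letI : Fintype T := Fintype.ofFinite T
  obtain ⟨Ψ, χ, h1, h2, h3, h4⟩ := h
  let θ : Fin n → IrrCharacter T := fun j => ⟨(χ j : X → ℂ) ∘ e.toMonoidHom, isIrr_comp e.toMonoidHom e.surjective (χ j).2⟩
  have hθa : ∀ j t, (θ j : T → ℂ) t = (χ j : X → ℂ) (e t) := fun j t => rfl
  have hθ : ∀ j, θ j ∈ principalBlock M T := by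
    intro j t
    have h5 := h2 j (e t)
    rw [← Blocks.Covering.centralChar_comp_equiv e, ← Blocks.Covering.centralChar_comp_equiv e] at h5
    exact h5
  have hinner : ∀ (f f' : X → ℂ), classInner (fun t : T => f (e t)) (fun t : T => f' (e t)) = classInner f f' := by
    intro f f'
    unfold classInner
    rw [Nat.card_congr e.toEquiv]
    congr 1
    exact Fintype.sum_equiv e.toEquiv _ _ fun t => rfl
  have hmat : (Matrix.of fun i j => classInner (θ j : T → ℂ) (fun t : T => Ψ i (e t))) =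
      Matrix.of fun i j => classInner (χ j : X → ℂ) (Ψ i) := by
    ext i j
    exact hinner (χ j : X → ℂ) (Ψ i)
  -- conjugation by `g` on `X`
  let φ : G → MulAut X := fun g => (e.symm.trans (MulAut.conjNormal g : MulAut T)).trans e
  have hφ : ∀ g t, e (MulAut.conjNormal g t) = φ g (e t) := by
    intro g t
    change _ = e (MulAut.conjNormal g (e.symm (e t)))
    rw [e.symm_apply_apply]
  have hsing : ∀ i (t : T), p ∣ orderOf t → Ψ i (e t) = 0 := by
    intro i t ht
    apply h1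
    rwa [MulEquiv.orderOf_eq]
  rcases h4 with h4 | h4
  · exact le_of_inv_char T hM (fun i t => Ψ i (e t)) hsing θ hθ (fun j g t => by rw [hθa, hθa, hφ, h4])
      (by rwa [hmat])
  · exact le_of_inv T hM (fun i t => Ψ i (e t)) hsing (fun i g t => by rw [hφ, h4]) θ hθ (by rwa [hmat])

end Cfsg.Agent.H283.LB
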