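import Cfsg.Agent.H283.LB.Norm
import Cfsg.Agent.H439.CC.Defs

/-!
# S4879, tool (T5) for a normal subgroup, parabolic multiplicities (helper283)

`T` normal in `G` (no condition on `G / T`), `P i ≤ T` `p'`-subgroups, `θ j ∈ B₀(T)` with
`μ (P i) (θ j ^ g) = μ (P i) (θ j)` for all `g : G`, `[μ (P i) (θ j)]` nonsingular of size `n`: then `n ≤ l(B₀(G))`
(`μ P χ = [χ, 1_P^T]` is `H439.CC.mu`).

* `le_of_inner`: general `Ψ i`, invariant inner products;
* `le_of_mu`, `le_of_mu_int`: `Ψ i = 1_{P i}^T`;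
* `le_of_mu_iso`, `le_of_mu_iso_int`: the same for `T ≃* X`, everything on `X` and invariant under `Aut X`.
-/

set_option autoImplicit false

namespace Cfsg.Agent.H283.LB

open Cfsg Cfsg.Agent.Characters.Core Cfsg.Agent.H439.CC
open scoped ComplexConjugate

universe u v

section Mu

variable {X : Type u} [Group X] [Fintype X]

open Classical in
/-- `(|X| / |P|) 1_P`; its average over the conjugates is `1_P^X` -/
noncomputable def indMu (P : Subgroup X) (x : X) : ℂ := if x ∈ P then (Nat.card X : ℂ) * (Nat.card P : ℂ)⁻¹ else 0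

theorem classInner_indMu (P : Subgroup X) (χ : X → ℂ) : classInner χ (indMu P) = mu P χ := by
  classical
  unfold classInner mu indMu
  have h1 : ∑ g : X, χ g * conj (if g ∈ P then (Nat.card X : ℂ) * (Nat.card P : ℂ)⁻¹ else 0) =
      ∑ g ∈ Finset.univ.filter (fun g => g ∈ P), χ g * ((Nat.card X : ℂ) * (Nat.card P : ℂ)⁻¹) := by
    rw [Finset.sum_filter]
    refine Finset.sum_congr rfl fun g _ => ?_
    by_cases hg : g ∈ P
    · rw [if_pos hg, if_pos hg, map_mul, map_inv₀, Complex.conj_natCast, Complex.conj_natCast]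
    · rw [if_neg hg, if_neg hg, map_zero, mul_zero]
  rw [h1, Finset.sum_subtype (p := fun g => g ∈ P) _ (by simp), ← Finset.sum_mul, finsum_eq_sum_of_fintype,
    ← mul_assoc, mul_comm, ← mul_assoc]
  have h2 : (Nat.card X : ℂ) ≠ 0 := by exact_mod_cast Nat.card_pos.ne'
  field_simp

theorem indMu_eq_zero {p : ℕ} {P : Subgroup X} (hP : ¬ p ∣ Nat.card P) {x : X} (hx : p ∣ orderOf x) : indMu P x = 0 := by
  unfold indMu
  rw [if_neg]
  intro h
  apply hP
  refine hx.trans ?_
  have h1 := orderOf_dvd_natCard (⟨x, h⟩ : P)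
  rwa [Subgroup.orderOf_mk] at h1

end Mu

section Normal

variable {G : Type u} [Group G] [Fintype G] {p : ℕ} (T : Subgroup G) [T.Normal] [Fintype T]

/-- **T5 for a normal subgroup, invariant inner products.** -/
theorem le_of_inner [Fact p.Prime] {M : Ideal AlgInt} (hM : IsPModular p M) {n : ℕ} (Ψ : Fin n → T → ℂ)
    (hΨ : ∀ i t, p ∣ orderOf t → Ψ i t = 0)
    (θ : Fin n → IrrCharacter T) (hθ : ∀ j, θ j ∈ principalBlock M T)
    (hinv : ∀ i j (g : G), classInner (fun t => (θ j : T → ℂ) (MulAut.conjNormal g t)) (Ψ i) =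
      classInner (θ j : T → ℂ) (Ψ i))
    (hdet : (Matrix.of fun i j => classInner (θ j : T → ℂ) (Ψ i)).det ≠ 0) :
    n ≤ blockRank p (principalBlock M G) := by
  refine le_of_inv T hM (fun i => avg T (Ψ i)) ?_ (fun i g t => avg_inv T (Ψ i) g t) θ hθ ?_
  · intro i t ht
    unfold avg
    rw [Finset.sum_eq_zero, mul_zero]
    intro g _
    apply hΨ
    rwa [MulEquiv.orderOf_eq]
  · have h1 : (Matrix.of fun i j => classInner (θ j : T → ℂ) (avg T (Ψ i))) =
        Matrix.of fun i j => classInner (θ j : T → ℂ) (Ψ i) := by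
      ext i j
      rw [Matrix.of_apply, Matrix.of_apply]
      have h2 : ∀ g : G, ∑ t : T, (θ j : T → ℂ) t * conj (Ψ i (MulAut.conjNormal g t)) =
          (Nat.card T : ℂ) * classInner (θ j : T → ℂ) (Ψ i) := by
        intro g
        rw [← hinv i j g⁻¹]
        unfold classInner
        rw [← mul_assoc, mul_inv_cancel₀ (by exact_mod_cast Nat.card_pos.ne'), one_mul]
        refine Fintype.sum_equiv (MulAut.conjNormal g : MulAut T).toEquiv _ _ fun t => ?_
        change _ = (θ j : T → ℂ) (MulAut.conjNormal g⁻¹ (MulAut.conjNormal g t)) * conj (Ψ i (MulAut.conjNormal g t))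
        rw [← MulAut.mul_apply, ← map_mul, inv_mul_cancel, map_one, MulAut.one_apply]
      have h3 : ∀ t : T, (θ j : T → ℂ) t * conj (avg T (Ψ i) t) =
          (Nat.card G : ℂ)⁻¹ * ∑ g : G, (θ j : T → ℂ) t * conj (Ψ i (MulAut.conjNormal g t)) := by
        intro t
        unfold avg
        rw [map_mul, map_inv₀, Complex.conj_natCast, map_sum, mul_left_comm, Finset.mul_sum (s := Finset.univ)]
      have h4 : classInner (θ j : T → ℂ) (avg T (Ψ i)) = (Nat.card T : ℂ)⁻¹ * ((Nat.card G : ℂ)⁻¹ *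
          ∑ g : G, ∑ t : T, (θ j : T → ℂ) t * conj (Ψ i (MulAut.conjNormal g t))) := by
        unfold classInner
        rw [Finset.sum_congr rfl fun t _ => h3 t, ← Finset.mul_sum, Finset.sum_comm]
      rw [h4, Finset.sum_congr rfl fun g _ => h2 g, Finset.sum_const, Finset.card_univ, nsmul_eq_mul,
        Nat.card_eq_fintype_card (α := G), ← mul_assoc ((Fintype.card G : ℂ)⁻¹),
        inv_mul_cancel₀ (by exact_mod_cast Fintype.card_ne_zero), one_mul, ← mul_assoc,
        inv_mul_cancel₀ (by exact_mod_cast Nat.card_pos.ne'), one_mul]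
    rwa [h1]

end Normal

section Fin

variable {G : Type u} [Group G] [Finite G] {p : ℕ} (T : Subgroup G) [T.Normal]

/-- **T5 for a normal subgroup, multiplicities in permutation characters.** -/
theorem le_of_mu [Fact p.Prime] {M : Ideal AlgInt} (hM : IsPModular p M) {n : ℕ} (P : Fin n → Subgroup T)
    (hP : ∀ i, ¬ p ∣ Nat.card (P i)) (θ : Fin n → IrrCharacter T) (hθ : ∀ j, θ j ∈ principalBlock M T)
    (hinv : ∀ i j (g : G), mu (P i) (fun t => (θ j : T → ℂ) (MulAut.conjNormal g t)) = mu (P i) (θ j : T → ℂ))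
    (hdet : (Matrix.of fun i j => mu (P i) (θ j : T → ℂ)).det ≠ 0) :
    n ≤ blockRank p (principalBlock M G) := by
  classical
  cases nonempty_fintype G
  letI : Fintype T := Fintype.ofFinite T
  refine le_of_inner T hM (fun i => indMu (P i)) (fun i t ht => indMu_eq_zero (hP i) ht) θ hθ ?_ ?_
  · intro i j g
    rw [classInner_indMu, classInner_indMu, hinv]
  · have h1 : (Matrix.of fun i j => classInner (θ j : T → ℂ) (indMu (P i))) =
        Matrix.of fun i j => mu (P i) (θ j : T → ℂ) := by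
      ext i j
      exact classInner_indMu (P i) (θ j : T → ℂ)
    rwa [h1]

theorem det_ne_zero_of_int {n : ℕ} {m : Fin n → Fin n → ℂ} (A : Matrix (Fin n) (Fin n) ℤ) (hA : ∀ i j, m i j = A i j)
    (hdet : A.det ≠ 0) : (Matrix.of m).det ≠ 0 := by
  have h4 : (Matrix.of m) = A.map (Int.castRingHom ℂ) := by
    ext i j
    exact hA i j
  rw [h4, ← RingHom.mapMatrix_apply, ← RingHom.map_det]
  change ((A.det : ℤ) : ℂ) ≠ 0
  exact_mod_cast hdet

theorem le_of_mu_int [Fact p.Prime] {M : Ideal AlgInt} (hM : IsPModular p M) {n : ℕ} (P : Fin n → Subgroup T)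
    (hP : ∀ i, ¬ p ∣ Nat.card (P i)) (θ : Fin n → IrrCharacter T) (hθ : ∀ j, θ j ∈ principalBlock M T)
    (hinv : ∀ i j (g : G), mu (P i) (fun t => (θ j : T → ℂ) (MulAut.conjNormal g t)) = mu (P i) (θ j : T → ℂ))
    (A : Matrix (Fin n) (Fin n) ℤ) (hA : ∀ i j, mu (P i) (θ j : T → ℂ) = A i j) (hdet : A.det ≠ 0) :
    n ≤ blockRank p (principalBlock M G) :=
  le_of_mu T hM P hP θ hθ hinv (det_ne_zero_of_int A hA hdet)

/-- **The same for `T ≃* X`.** -/
theorem le_of_mu_iso [Fact p.Prime] {M : Ideal AlgInt} (hM : IsPModular p M) {X : Type v} [Group X] [Finite X]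
    (e : T ≃* X) {n : ℕ} (P : Fin n → Subgroup X)
    (hP : ∀ i, ¬ p ∣ Nat.card (P i)) (χ : Fin n → IrrCharacter X) (hχ : ∀ j, χ j ∈ principalBlock M X)
    (hinv : ∀ i j (φ : MulAut X), mu (P i) (fun x => (χ j : X → ℂ) (φ x)) = mu (P i) (χ j : X → ℂ))
    (hdet : (Matrix.of fun i j => mu (P i) (χ j : X → ℂ)).det ≠ 0) :
    n ≤ blockRank p (principalBlock M G) := by
  classical
  cases nonempty_fintype G
  cases nonempty_fintype X
  letI : Fintype T := Fintype.ofFinite T
  let θ : Fin n → IrrCharacter T := fun j => ⟨(χ j : X → ℂ) ∘ e.toMonoidHom, isIrr_comp e.toMonoidHom e.surjective (χ j).2⟩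
  have hθa : ∀ j t, (θ j : T → ℂ) t = (χ j : X → ℂ) (e t) := fun j t => rfl
  have hθ : ∀ j, θ j ∈ principalBlock M T := by
    intro j t
    have h5 := hχ j (e t)
    rw [← Blocks.Covering.centralChar_comp_equiv e, ← Blocks.Covering.centralChar_comp_equiv e] at h5
    exact h5
  have hmu : ∀ (Q : Subgroup X) (f : X → ℂ), mu (Q.comap e.toMonoidHom) (fun t => f (e t)) = mu Q f := by
    intro Q f
    unfold mu
    have h1 : Nat.card (Q.comap e.toMonoidHom) = Nat.card Q := by
      refine Nat.card_congr (e.toEquiv.subtypeEquiv fun t => ?_)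
      exact Iff.rfl
    rw [h1]
    congr 1
    refine finsum_eq_of_bijective (e.toEquiv.subtypeEquiv (p := fun t => t ∈ Q.comap e.toMonoidHom) (q := fun x => x ∈ Q)
      fun t => Iff.rfl) (Equiv.bijective _) fun t => rfl
  have hcard : ∀ Q : Subgroup X, Nat.card (Q.comap e.toMonoidHom) = Nat.card Q := fun Q =>
    Nat.card_congr (e.toEquiv.subtypeEquiv fun t => Iff.rfl)
  let φ : G → MulAut X := fun g => (e.symm.trans (MulAut.conjNormal g : MulAut T)).trans e
  have hφ : ∀ g t, e (MulAut.conjNormal g t) = φ g (e t) := by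
    intro g t
    change _ = e (MulAut.conjNormal g (e.symm (e t)))
    rw [e.symm_apply_apply]
  refine le_of_mu T hM (fun i => (P i).comap e.toMonoidHom) (fun i => by rw [hcard]; exact hP i) θ hθ ?_ ?_
  · intro i j g
    have h1 : (fun t => (θ j : T → ℂ) (MulAut.conjNormal g t)) = fun t => (fun x => (χ j : X → ℂ) (φ g x)) (e t) := by
      funext t
      rw [hθa, hφ]
    have h2 : (θ j : T → ℂ) = fun t => (χ j : X → ℂ) (e t) := rfl
    rw [h1, h2, hmu (P i) (fun x => (χ j : X → ℂ) (φ g x)), hmu (P i) (χ j : X → ℂ), hinv]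
  · have h1 : (Matrix.of fun i j => mu ((P i).comap e.toMonoidHom) (θ j : T → ℂ)) =
        Matrix.of fun i j => mu (P i) (χ j : X → ℂ) := by
      ext i j
      exact hmu (P i) (χ j : X → ℂ)
    rwa [h1]

theorem le_of_mu_iso_int [Fact p.Prime] {M : Ideal AlgInt} (hM : IsPModular p M) {X : Type v} [Group X] [Finite X]
    (e : T ≃* X) {n : ℕ} (P : Fin n → Subgroup X)
    (hP : ∀ i, ¬ p ∣ Nat.card (P i)) (χ : Fin n → IrrCharacter X) (hχ : ∀ j, χ j ∈ principalBlock M X)
    (hinv : ∀ i j (φ : MulAut X), mu (P i) (fun x => (χ j : X → ℂ) (φ x)) = mu (P i) (χ j : X → ℂ))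
    (A : Matrix (Fin n) (Fin n) ℤ) (hA : ∀ i j, mu (P i) (χ j : X → ℂ) = A i j) (hdet : A.det ≠ 0) :
    n ≤ blockRank p (principalBlock M G) :=
  le_of_mu_iso T hM e P hP χ hχ hinv (det_ne_zero_of_int A hA hdet)

end Fin

end Cfsg.Agent.H283.LB
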