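import Cfsg.Prelude.Def_BlockRank
import Mathlib.LinearAlgebra.Matrix.Rank
import Mathlib.LinearAlgebra.Matrix.ToLinearEquiv
import Mathlib.LinearAlgebra.Dimension.Constructions
import Mathlib.GroupTheory.Sylow

/-!
# S4879, tool (T5): projective functions bound `l(B)` from below (helper283)

`Ψ i` class functions (any functions) vanishing on the `p`-singular elements, `χ j ∈ B`: the rank of the matrix
`[Ψ i, χ j]` is at most `blockRank p B`.

* `rank_le_blockRank`: `(Matrix.of fun i j => classInner (Ψ i) (χ j)).rank ≤ blockRank p B`;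
* `le_blockRank_of_det`: complex square matrix, `det ≠ 0`;
* `le_blockRank_of_int`: integer square matrix, `det ≠ 0`;
* `indFun_eq_zero`: a function induced from a subgroup of order prime to `p` vanishes on the `p`-singular elements.
-/

set_option autoImplicit false

namespace Cfsg.Agent.H283.LB

open Cfsg
open scoped ComplexConjugate

universe u

variable {G : Type u} [Group G] {p : ℕ}

/-- the span of the restrictions to the `p`-regular elements -/
noncomputable def RegSpan (p : ℕ) (B : Set (IrrCharacter G)) : Submodule ℂ (G → ℂ) :=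
  Submodule.span ℂ ((fun χ : IrrCharacter G => pRegularPart p (χ : G → ℂ)) '' B)

theorem finrank_regSpan (B : Set (IrrCharacter G)) : Module.finrank ℂ (RegSpan p B) = blockRank p B := rfl

theorem pRegularPart_mem {B : Set (IrrCharacter G)} {χ : IrrCharacter G} (h : χ ∈ B) :
    pRegularPart p (χ : G → ℂ) ∈ RegSpan p B :=
  Submodule.subset_span ⟨χ, h, rfl⟩

theorem pRegularPart_of_reg {χ : G → ℂ} {g : G} (h : IsPRegular p g) : pRegularPart p χ g = χ g := by
  classical
  unfold pRegularPart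
  rw [if_pos h]

theorem pRegularPart_of_sing {χ : G → ℂ} {g : G} (h : ¬ IsPRegular p g) : pRegularPart p χ g = 0 := by
  classical
  unfold pRegularPart
  rw [if_neg h]

section

variable [Fintype G]

/-- conjugation of the inner product -/
theorem conj_classInner (φ ψ : G → ℂ) : conj (classInner φ ψ) = classInner ψ φ := by
  unfold classInner
  rw [map_mul, map_inv₀, Complex.conj_natCast, map_sum]
  congr 1
  refine Finset.sum_congr rfl fun g _ => ?_
  rw [map_mul, Complex.conj_conj, mul_comm]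

/-- the linear functional `f ↦ [f, Ψ]` -/
noncomputable def fn (Ψ : G → ℂ) : (G → ℂ) →ₗ[ℂ] ℂ where
  toFun f := classInner f Ψ
  map_add' f f' := by
    unfold classInner
    rw [← mul_add, ← Finset.sum_add_distrib]
    congr 1
    refine Finset.sum_congr rfl fun g _ => ?_
    rw [Pi.add_apply, add_mul]
  map_smul' c f := by
    unfold classInner
    rw [RingHom.id_apply, smul_eq_mul, mul_left_comm, Finset.mul_sum (s := Finset.univ) (a := c)]
    congr 1
    refine Finset.sum_congr rfl fun g _ => ?_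
    rw [Pi.smul_apply, smul_eq_mul, mul_assoc]

theorem fn_apply (Ψ f : G → ℂ) : fn Ψ f = classInner f Ψ := rfl

/-- `Ψ` does not see the `p`-singular values -/
theorem fn_pRegularPart {Ψ : G → ℂ} (hΨ : ∀ g, ¬ IsPRegular p g → Ψ g = 0) (χ : G → ℂ) :
    fn Ψ (pRegularPart p χ) = classInner χ Ψ := by
  rw [fn_apply]
  unfold classInner
  congr 1
  refine Finset.sum_congr rfl fun g _ => ?_
  by_cases hg : IsPRegular p g
  · rw [pRegularPart_of_reg hg]
  · rw [hΨ g hg, map_zero, mul_zero, mul_zero]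

/-- the map to the coordinates -/
noncomputable def ev {ι : Type*} (Ψ : ι → G → ℂ) : (G → ℂ) →ₗ[ℂ] (ι → ℂ) := LinearMap.pi fun i => fn (Ψ i)

theorem ev_apply {ι : Type*} (Ψ : ι → G → ℂ) (f : G → ℂ) (i : ι) : ev Ψ f i = classInner f (Ψ i) := rfl

/-- **Rank bound.** -/
theorem rank_le_blockRank {ι κ : Type*} [Fintype ι] [Fintype κ] {B : Set (IrrCharacter G)} (Ψ : ι → G → ℂ)
    (hΨ : ∀ i g, ¬ IsPRegular p g → Ψ i g = 0) (χ : κ → IrrCharacter G) (hχ : ∀ j, χ j ∈ B) :
    (Matrix.of fun i j => classInner (χ j : G → ℂ) (Ψ i)).rank ≤ blockRank p B := by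
  classical
  rw [Matrix.rank_eq_finrank_span_cols, ← finrank_regSpan]
  haveI : Module.Finite ℂ (G → ℂ) := inferInstance
  have h1 : Submodule.span ℂ (Set.range (Matrix.of fun i j => classInner (χ j : G → ℂ) (Ψ i)).col) ≤
      (RegSpan p B).map (ev Ψ) := by
    rw [Submodule.span_le]
    rintro _ ⟨j, rfl⟩
    refine ⟨pRegularPart p (χ j : G → ℂ), pRegularPart_mem (hχ j), ?_⟩
    funext i
    exact fn_pRegularPart (hΨ i) _
  exact (Submodule.finrank_mono h1).trans (Submodule.finrank_map_le _ _)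

/-- **Determinant bound.** -/
theorem le_blockRank_of_det {ι : Type*} [Fintype ι] [DecidableEq ι] {B : Set (IrrCharacter G)} (Ψ : ι → G → ℂ)
    (hΨ : ∀ i g, ¬ IsPRegular p g → Ψ i g = 0) (χ : ι → IrrCharacter G) (hχ : ∀ j, χ j ∈ B)
    (hdet : (Matrix.of fun i j => classInner (χ j : G → ℂ) (Ψ i)).det ≠ 0) : Fintype.card ι ≤ blockRank p B := by
  have h1 := rank_le_blockRank Ψ hΨ χ hχ
  have h2 : IsUnit (Matrix.of fun i j => classInner (χ j : G → ℂ) (Ψ i)) :=
    (Matrix.isUnit_iff_isUnit_det _).2 (isUnit_iff_ne_zero.2 hdet)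
  rwa [Matrix.rank_of_isUnit _ h2] at h1

/-- **Integer matrix.** -/
theorem le_blockRank_of_int {ι : Type*} [Fintype ι] [DecidableEq ι] {B : Set (IrrCharacter G)} (Ψ : ι → G → ℂ)
    (hΨ : ∀ i g, ¬ IsPRegular p g → Ψ i g = 0) (χ : ι → IrrCharacter G) (hχ : ∀ j, χ j ∈ B) (A : Matrix ι ι ℤ)
    (hA : ∀ i j, classInner (Ψ i) (χ j : G → ℂ) = A i j) (hdet : A.det ≠ 0) : Fintype.card ι ≤ blockRank p B := by
  apply le_blockRank_of_det Ψ hΨ χ hχ
  have h1 : (Matrix.of fun i j => classInner (χ j : G → ℂ) (Ψ i)) = A.map (Int.castRingHom ℂ) := by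
    ext i j
    change classInner (χ j : G → ℂ) (Ψ i) = ((A i j : ℤ) : ℂ)
    rw [← conj_classInner, hA, map_intCast]
  rw [h1, ← RingHom.mapMatrix_apply, ← RingHom.map_det]
  change ((A.det : ℤ) : ℂ) ≠ 0
  exact_mod_cast hdet

/-- The same with `Fin n`, and the functions indexed in the other order. -/
theorem le_blockRank_of_int' {n : ℕ} {B : Set (IrrCharacter G)} (Ψ : Fin n → G → ℂ)
    (hΨ : ∀ i g, p ∣ orderOf g → Ψ i g = 0) (χ : Fin n → IrrCharacter G) (hχ : ∀ j, χ j ∈ B)
    (A : Matrix (Fin n) (Fin n) ℤ) (hA : ∀ i j, classInner (χ j : G → ℂ) (Ψ i) = A i j) (hdet : A.det ≠ 0) :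
    n ≤ blockRank p B := by
  have h1 := le_blockRank_of_int Ψ (fun i g hg => hΨ i g (not_not.1 hg)) χ hχ A (fun i j => by
    rw [← conj_classInner, hA, map_intCast]) hdet
  rwa [Fintype.card_fin] at h1

/-- A function induced from a subgroup of order prime to `p` vanishes on the `p`-singular elements. -/
theorem indFun_eq_zero {H : Subgroup G} (hH : ¬ p ∣ Nat.card H) (θ : H → ℂ) {g : G} (hg : ¬ IsPRegular p g) :
    indFun H θ g = 0 := by
  have hg' : p ∣ orderOf g := not_not.1 hg
  unfold indFun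
  rw [Finset.sum_eq_zero, mul_zero]
  intro x _
  unfold extendByZero
  rw [Function.extend_apply' _ _ _ ?_]
  · rfl
  · rintro ⟨⟨y, hy⟩, hyx⟩
    apply hH
    have h1 : y = x⁻¹ * g * x := hyx
    have h2 : orderOf y = orderOf g := by
      rw [h1]
      have h3 := MulEquiv.orderOf_eq (MulAut.conj x⁻¹) g
      rwa [MulAut.conj_apply, inv_inv] at h3
    have h4 : orderOf (⟨y, hy⟩ : H) ∣ Nat.card H := orderOf_dvd_natCard _
    rw [Subgroup.orderOf_mk, h2] at h4
    exact hg'.trans h4

end

end Cfsg.Agent.H283.LB
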